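import Cfsg.Agent.PGUThreeEven.Model

/-!
The torus of `PGU₃(q)`, `q` even, generation, and the shape of the centraliser of an involution.
-/

set_option autoImplicit false
set_option linter.unusedSectionVars false

namespace CfsgLib.PGUThreeEven

open Cfsg CfsgLib.Unitary CfsgLib.UnitaryThree CfsgLib.RankOneClassify.Model Matrix

variable {F : Type*} [Field F] [Fintype F] {q : ℕ} {d : Data F q}

/-- The element `diag(1, 1, μ)` of `GU₃`. -/
noncomputable def torG (μ : Fˣ) (hμ : (μ : F) ^ (q + 1) = 1) : ↥(GU 3 F q) :=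
  diagGU ![1, 1, (μ : F)] fun i => by fin_cases i <;> simp [hμ]

theorem gv_torG (μ : Fˣ) (hμ : (μ : F) ^ (q + 1) = 1) (x : Fin 3 → F) :
    gv (torG μ hμ) x = ![x 0, x 1, (μ : F) * x 2] := by
  funext i
  simp only [gv, torG, diagGU_val, Matrix.mulVec_diagonal]
  fin_cases i <;> simp

/-- The torus element as a permutation. -/
noncomputable def tor (d : Data F q) (μ : Fˣ) (hμ : (μ : F) ^ (q + 1) = 1) :
    Equiv.Perm (Option (uni d)) := repG d (torG μ hμ)

theorem tor_mem (μ : Fˣ) (hμ : (μ : F) ^ (q + 1) = 1) : tor d μ hμ ∈ pgu d := ⟨_, rfl⟩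

theorem coB_liftAut (μ : Fˣ) (θ : RingAut F) (g : uni d) :
    coB (liftAut d μ θ g) = (μ : F) ^ (q + 1) * θ (coB g) := rfl

theorem tor_none (μ : Fˣ) (hμ : (μ : F) ^ (q + 1) = 1) : tor d μ hμ none = none := by
  refine actG_eq (l := 1) ?_
  rw [gv_torG, one_smul]
  funext i; fin_cases i <;> simp [pvec, vE]

theorem tor_some (μ : Fˣ) (hμ : (μ : F) ^ (q + 1) = 1) (u : uni d) :
    tor d μ hμ (some u) = some (liftAut d μ 1 u) := by
  refine actG_eq (l := 1) ?_
  rw [gv_torG, one_smul]
  funext i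
  fin_cases i <;> simp [pvec, vP, vE, vF, vG, coA_liftAut, coB_liftAut, hμ]

/-- The stabiliser of the two base points acts diagonally. -/
theorem exists_mu {π : Equiv.Perm (Option (uni d))} (hπ : π ∈ pgu d) (h0 : π none = none)
    (h1 : π (some 1) = some 1) :
    ∃ μ : Fˣ, ∀ u : uni d, π (some u) = some (liftAut d μ 1 u) := by
  obtain ⟨g, rfl⟩ := hπ
  obtain ⟨e, hne0, hE⟩ := gv_pvec g (none : Option (uni d))
  obtain ⟨f, hne1, hF⟩ := gv_pvec g (some (1 : uni d))
  rw [← repG_apply, h0] at hE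
  rw [← repG_apply, h1] at hF
  simp only [pvec, Option.elim] at hE
  have hF' : gv g (vF d) = f • vF d := by simpa [pvec, vP] using hF
  have hc := cPar_pow d
  have hef : e * f ^ q = 1 := by
    have h := gv_herm g vE (vF d)
    rw [hE, hF', herm_smul_left, herm_smul_right] at h
    have h1 : hermForm 3 F q vE (vF d) = 1 := by
      simp [hermForm, vE, vF, Fin.sum_univ_three, add_pow_q d.card, hc, d.q_pos.ne']
      linear_combination (cPar d + 1) * d.two
    rw [h1, mul_one] at h
    exact h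
  obtain ⟨z, hz⟩ : ∃ z : Fin 3 → F, gv g vG = z := ⟨_, rfl⟩
  have hzz : hermForm 3 F q (gv g vG) (gv g vG) = 1 := by
    rw [gv_herm]; simp [hermForm, vG, Fin.sum_univ_three, d.q_pos.ne']
  have hzE : hermForm 3 F q (gv g vG) (gv g vE) = 0 := by
    rw [gv_herm]; simp [hermForm, vG, vE, Fin.sum_univ_three, d.q_pos.ne']
  have hzF : hermForm 3 F q (gv g vG) (gv g (vF d)) = 0 := by
    rw [gv_herm]; simp [hermForm, vG, vF, Fin.sum_univ_three, d.q_pos.ne']
  rw [hE, herm_smul_right, mul_eq_zero] at hzE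
  rw [hF', herm_smul_right, mul_eq_zero] at hzF
  have e0 := hzE.resolve_left (pow_ne_zero _ hne0)
  have e1 := hzF.resolve_left (pow_ne_zero _ hne1)
  rw [hz] at e0 e1 hzz
  simp [hermForm, vE, vF, Fin.sum_univ_three, add_pow_q d.card, hc, d.q_pos.ne'] at e0 e1 hzz
  have z1 : z 1 = z 0 := by linear_combination e0 - z 0 * d.two
  have z0 : z 0 = 0 := by
    rw [z1] at e1
    linear_combination e1 - (z 0 * cPar d + z 0) * d.two
  rw [z0] at z1
  rw [z0, z1] at hzz
  simp [d.q_pos.ne'] at hzz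
  have hk : z 2 ≠ 0 := fun h => by rw [h, zero_mul] at hzz; exact zero_ne_one hzz
  refine ⟨Units.mk0 (z 2 / f) (div_ne_zero hk hne1), fun u => ?_⟩
  have hN : (z 2 / f) ^ (q + 1) = e / f := by
    rw [div_pow, pow_succ, pow_succ, mul_comm (z 2 ^ q), hzz]
    field_simp
    linear_combination -hef
  refine actG_eq (l := f) ?_
  have hG : gv g vG = z 2 • vG := by
    rw [hz]; funext i; fin_cases i <;> simp [vG, z0, z1]
  simp only [pvec, Option.elim, vP, gv_add, gv_smul, hE, hF', hG, coA_liftAut, coB_liftAut,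
    Units.val_mk0, RingAut.one_apply, hN, smul_add, smul_smul]
  congr 2
  · field_simp
  · field_simp

/-- The translations, the flip and the torus generate `PGU₃(q)`. -/
theorem pgu_le (hq : 3 ≤ q) {K : Subgroup (Equiv.Perm (Option (uni d)))}
    (hU : ∀ u : uni d, trU d u ∈ K) (hw : rep d (flipSU d) ∈ K)
    (hT : ∀ (μ : Fˣ) (hμ : (μ : F) ^ (q + 1) = 1), tor d μ hμ ∈ K) : pgu d ≤ K := by
  rintro _ ⟨g, rfl⟩
  have hS : ∀ A : ↥(SU 3 F q), rep d A ∈ K := fun A => by
    have h : (⊤ : Subgroup ↥(SU 3 F q)) ≤ K.comap (rep d) := by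
      rw [← closure_eq_top d hq]
      refine sup_le (fun u hu => hU ⟨u, hu⟩) ?_
      rw [Subgroup.zpowers_le]
      exact hw
    exact h (Subgroup.mem_top A)
  set μ : Fˣ := detGU g with hμdef
  have hμ : (μ : F) ^ (q + 1) = 1 := by
    have := det_pow_succ_eq_one d.card g.2
    simpa [hμdef, detGU] using this
  have hdet : detGU (torG μ hμ) = μ := Units.ext (by
    simp [detGU, torG, Matrix.det_diagonal, Fin.prod_univ_three])
  have hker : g * (torG μ hμ)⁻¹ ∈ (detGU : ↥(GU 3 F q) →* Fˣ).ker := by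
    rw [MonoidHom.mem_ker, map_mul, map_inv, hdet, ← hμdef, mul_inv_cancel]
  rw [ker_detGU] at hker
  obtain ⟨A, hA⟩ := hker
  have : repG d g = rep d A * tor d μ hμ := by
    rw [← repG_suToGU, hA, tor, ← map_mul, inv_mul_cancel_right]
  rw [this]
  exact mul_mem (hS A) (hT μ hμ)

/-- The shape of the centraliser of an involution in `PGU₃(q)`. -/
def CentShape (C : Type*) [Group C] (q : ℕ) : Prop :=
  ∃ U : Subgroup C, U.Normal ∧ Nat.card U = q ^ 3 ∧ Nat.card C = q ^ 3 * (q + 1) ∧
    Nat.card {x : C // x ∈ U ∧ x * x = 1} = q ∧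
    (∀ x ∈ U, x * x = 1 → x ∈ Subgroup.center C) ∧
    ∀ x : C, (∀ w ∈ U, x * w = w * x) → x ∈ U

theorem CentShape.map {C C' : Type*} [Group C] [Group C'] (h : CentShape C q) (e : C ≃* C') :
    CentShape C' q := by
  obtain ⟨U, hn, h1, h2, h3, h4, h5⟩ := h
  refine ⟨U.map e.toMonoidHom, hn.map _ e.surjective, ?_, ?_, ?_, ?_, ?_⟩
  · rw [← h1]; exact (Nat.card_congr (e.subgroupMap U).toEquiv).symm
  · rw [← h2]; exact (Nat.card_congr e.toEquiv).symm
  · rw [← h3]
    refine (Nat.card_congr (e.toEquiv.subtypeEquiv fun x => ?_)).symm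
    constructor
    · rintro ⟨hx, hx2⟩
      exact ⟨Subgroup.mem_map_of_mem _ hx, by
        show e x * e x = 1
        rw [← map_mul, hx2, map_one]⟩
    · rintro ⟨hx, hx2⟩
      refine ⟨?_, e.injective (by rw [map_mul, map_one]; exact hx2)⟩
      obtain ⟨y, hy, hxy⟩ := hx
      rwa [← e.injective hxy]
  · rintro _ ⟨x, hx, rfl⟩ hx2
    have hx2' : x * x = 1 := e.injective (by rw [map_mul, map_one]; exact hx2)
    rw [Subgroup.mem_center_iff]
    intro g
    obtain ⟨g, rfl⟩ := e.surjective g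
    show e g * e x = e x * e g
    rw [← map_mul, ← map_mul, (Subgroup.mem_center_iff.mp (h4 x hx hx2') g)]
  · intro x hx
    obtain ⟨x, rfl⟩ := e.surjective x
    refine Subgroup.mem_map_of_mem _ (h5 x fun w hw => e.injective ?_)
    rw [map_mul, map_mul]
    exact hx (e w) (Subgroup.mem_map_of_mem _ hw)

/-- The involution used as base point. -/
noncomputable def z1 (d : Data F q) : uni d := el d 0 1 (cond_zero (one_pow q) d)

theorem z1_ne_one : z1 d ≠ 1 := fun h => by
  have : coB (z1 d) = (0 : F) := by rw [h, coB_one]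
  rw [z1, coB_el] at this
  exact one_ne_zero this

theorem z1_mul_self : z1 d * z1 d = 1 :=
  uni_ext (by rw [(sq_eq _).1, coA_one])
    (by rw [(sq_eq _).2, z1, coA_el, coB_one, zero_pow (Nat.succ_ne_zero q)])

theorem z1_comm (u : uni d) : u * z1 d = z1 d * u :=
  Subgroup.mem_center_iff.mp ((mem_center_iff _).2 (by rw [z1, coA_el])) u

theorem liftAut_z1 {μ : Fˣ} (hμ : (μ : F) ^ (q + 1) = 1) : liftAut d μ 1 (z1 d) = z1 d :=
  uni_ext (by rw [coA_liftAut, z1, coA_el, map_zero, mul_zero])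
    (by rw [coB_liftAut, hμ, one_mul, RingAut.one_apply])

theorem tor_trU (μ : Fˣ) (hμ : (μ : F) ^ (q + 1) = 1) (u : uni d) :
    tor d μ hμ * trU d u = trU d (liftAut d μ 1 u) * tor d μ hμ := by
  refine Equiv.ext fun p => ?_
  cases p with
  | none => simp [tor_none, trU_none]
  | some w => simp [tor_some, trU_some, map_mul]

theorem mem_centralizer_iff_exists {π : Equiv.Perm (Option (uni d))} (hπ : π ∈ pgu d) :
    π * trU d (z1 d) = trU d (z1 d) * π ↔
      ∃ (u : uni d) (μ : Fˣ) (hμ : (μ : F) ^ (q + 1) = 1), π = trU d u * tor d μ hμ := by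
  constructor
  · intro hc
    have hcp : ∀ p, π (trU d (z1 d) p) = trU d (z1 d) (π p) := fun p => by
      simpa using congrArg (fun π : Equiv.Perm (Option (uni d)) => π p) hc
    have h0 : π none = none := by
      rcases e : π (none : Option (uni d)) with _ | w
      · rfl
      · exfalso
        have := hcp none
        rw [trU_none, e, trU_some, Option.some_inj] at this
        exact z1_ne_one (d := d) (mul_eq_right.mp this.symm)
    obtain ⟨u, hu⟩ : ∃ u, π (some 1) = some u := by
      rcases e : π (some (1 : uni d)) with _ | w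
      · exact absurd (π.injective (e.trans h0.symm)) (by simp)
      · exact ⟨w, rfl⟩
    set π' := (trU d u)⁻¹ * π with hπ'
    have h0' : π' none = none := by
      rw [hπ', Equiv.Perm.mul_apply, h0, ← map_inv, trU_none]
    have h1' : π' (some 1) = some 1 := by
      rw [hπ', Equiv.Perm.mul_apply, hu, ← map_inv, trU_some, inv_mul_cancel]
    obtain ⟨μ, hμ⟩ := exists_mu (mul_mem (inv_mem (trU_mem u)) hπ) h0' h1'
    have hz : liftAut d μ 1 (z1 d) = z1 d := by
      refine Option.some_injective _ ?_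
      rw [← hμ, Equiv.Perm.mul_apply,
        show some (z1 d) = trU d (z1 d) (some 1) by rw [trU_some, mul_one], hcp, hu, trU_some,
        ← map_inv, trU_some, ← z1_comm, inv_mul_cancel_left, trU_some, mul_one]
    have hN : (μ : F) ^ (q + 1) = 1 := by
      have := congrArg coB hz
      rwa [coB_liftAut, z1, coB_el, map_one, mul_one] at this
    refine ⟨u, μ, hN, ?_⟩
    rw [← inv_mul_eq_iff_eq_mul, ← hπ']
    refine Equiv.ext fun p => ?_
    cases p with
    | none => rw [h0', tor_none]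
    | some w => rw [hμ, tor_some]
  · rintro ⟨u, μ, hμ, rfl⟩
    rw [mul_assoc, tor_trU, liftAut_z1 hμ, ← mul_assoc, ← map_mul, z1_comm, map_mul, mul_assoc]

theorem trU_mul_tor_inj {u u' : uni d} {μ μ' : Fˣ} {hμ : (μ : F) ^ (q + 1) = 1}
    {hμ' : (μ' : F) ^ (q + 1) = 1} (h : trU d u * tor d μ hμ = trU d u' * tor d μ' hμ') :
    u = u' ∧ μ = μ' := by
  have h1 := congrArg (fun π : Equiv.Perm (Option (uni d)) => π (some 1)) h
  simp [tor_some, trU_some] at h1
  subst h1
  obtain ⟨a, ha⟩ := exists_coA d (1 : F)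
  have h2 := congrArg (fun π : Equiv.Perm (Option (uni d)) => π (some a)) h
  simp [tor_some, trU_some] at h2
  have h3 := congrArg coA h2
  rw [coA_liftAut, coA_liftAut, ha, map_one, mul_one, mul_one] at h3
  exact ⟨rfl, Units.ext h3⟩

/-- The base involution of `PGU₃(q)`. -/
noncomputable def yPerm (d : Data F q) : ↥(pgu d) := ⟨trU d (z1 d), trU_mem _⟩

theorem orderOf_yPerm : orderOf (yPerm d) = 2 := by
  refine orderOf_eq_prime (Subtype.ext ?_) fun h => z1_ne_one (d := d) (trU_injective ?_)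
  · rw [yPerm, sq, Subgroup.coe_mul, ← map_mul, z1_mul_self, map_one]; rfl
  · rw [map_one]; exact congrArg Subtype.val h

/-- The translations inside the centraliser of the base involution. -/
noncomputable def trC (d : Data F q) :
    uni d →* ↥(Subgroup.centralizer ({yPerm d} : Set ↥(pgu d))) :=
  (((trU d).codRestrict (pgu d) trU_mem).codRestrict _ fun u => by
    rw [Subgroup.mem_centralizer_singleton_iff]
    refine Subtype.ext ?_
    show trU d u * trU d (z1 d) = trU d (z1 d) * trU d u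
    rw [← map_mul, ← map_mul, z1_comm])

theorem trC_coe (u : uni d) :
    (((trC d u : ↥(Subgroup.centralizer ({yPerm d} : Set ↥(pgu d)))) : ↥(pgu d)) :
      Equiv.Perm (Option (uni d))) = trU d u := rfl

set_option maxHeartbeats 1000000 in
theorem centShape_yPerm (d : Data F q) :
    CentShape ↥(Subgroup.centralizer ({yPerm d} : Set ↥(pgu d))) q := by
  classical
  set C := Subgroup.centralizer ({yPerm d} : Set ↥(pgu d)) with hC
  have hmemC : ∀ π : ↥(pgu d), π ∈ C ↔
      ∃ (u : uni d) (μ : Fˣ) (hμ : (μ : F) ^ (q + 1) = 1),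
        (π : Equiv.Perm (Option (uni d))) = trU d u * tor d μ hμ := by
    intro π
    rw [hC, Subgroup.mem_centralizer_singleton_iff, ← mem_centralizer_iff_exists π.2]
    exact Subtype.ext_iff
  have hmk : ∀ (u : uni d) (μ : Fˣ) (hμ : (μ : F) ^ (q + 1) = 1),
      (⟨trU d u * tor d μ hμ, mul_mem (trU_mem u) (tor_mem μ hμ)⟩ : ↥(pgu d)) ∈ C :=
    fun u μ hμ => (hmemC _).2 ⟨u, μ, hμ, rfl⟩
  have hval := trC_coe (d := d)
  have hinj : Function.Injective (trC d) := fun u v h => trU_injective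
    (congrArg (fun x : ↥C => ((x : ↥(pgu d)) : Equiv.Perm (Option (uni d)))) h)
  refine ⟨(trC d).range, ⟨?_⟩, ?_, ?_, ?_, ?_, ?_⟩
  · rintro _ ⟨w, rfl⟩ g
    obtain ⟨u, μ, hμ, hg⟩ := (hmemC g.1).1 g.2
    refine ⟨u * liftAut d μ 1 w * u⁻¹, ?_⟩
    rw [eq_mul_inv_iff_mul_eq]
    refine Subtype.ext (Subtype.ext ?_)
    simp only [map_mul, map_inv, Subgroup.coe_mul, Subgroup.coe_inv, hval, hg, mul_assoc, tor_trU, inv_mul_cancel_left]
  · rw [← Nat.card_congr (MonoidHom.ofInjective hinj).toEquiv, card_uni d]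
  · have e : ↥C ≃ uni d × {μ : Fˣ // (μ : F) ^ (q + 1) = 1} :=
      (Equiv.ofBijective (fun p : uni d × {μ : Fˣ // (μ : F) ^ (q + 1) = 1} =>
        (⟨⟨trU d p.1 * tor d p.2.1 p.2.2, mul_mem (trU_mem p.1) (tor_mem _ p.2.2)⟩,
          hmk p.1 p.2.1 p.2.2⟩ : ↥C))
        ⟨fun p p' h => by
          obtain ⟨h1, h2⟩ := trU_mul_tor_inj
            (congrArg (fun x : ↥C => ((x : ↥(pgu d)) : Equiv.Perm (Option (uni d)))) h)
          exact Prod.ext h1 (Subtype.ext h2),
        fun x => by
          obtain ⟨u, μ, hμ, hx⟩ := (hmemC x.1).1 x.2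
          exact ⟨(u, ⟨μ, hμ⟩), Subtype.ext (Subtype.ext hx.symm)⟩⟩).symm
    rw [Nat.card_congr e, Nat.card_prod, card_uni d]
    congr 1
    have e2 : {μ : Fˣ // (μ : F) ^ (q + 1) = 1} ≃ {x : F // x ^ (q + 1) = 1} :=
      { toFun := fun μ => ⟨(μ.1 : F), μ.2⟩
        invFun := fun x => ⟨Units.mk0 x.1 (fun h => by
          have := x.2
          rw [h, zero_pow (Nat.succ_ne_zero q)] at this
          exact zero_ne_one this), x.2⟩
        left_inv := fun μ => Subtype.ext (Units.ext rfl)
        right_inv := fun x => Subtype.ext rfl }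
    rw [Nat.card_congr e2]
    exact card_norm_one d.card
  · refine Eq.trans ?_ (card_fixed d.card)
    refine (Nat.card_eq_of_bijective (fun z : {x : F // x ^ q = x} =>
      (⟨(trC d) (el d 0 z.1 (cond_zero z.2 d)), ⟨_, rfl⟩, by
        rw [← map_mul, ← map_one (trC d)]
        exact congrArg (trC d) (uni_ext (by rw [(sq_eq _).1, coA_one])
          (by rw [(sq_eq _).2, coA_el, coB_one, zero_pow (Nat.succ_ne_zero q)]))⟩ :
        {x : ↥C // x ∈ (trC d).range ∧ x * x = 1})) ⟨fun a b h => ?_, ?_⟩).symm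
    · exact Subtype.ext (congrArg coB (hinj (congrArg Subtype.val h)))
    · rintro ⟨_, ⟨w, rfl⟩, hw⟩
      rw [← map_mul, ← map_one (trC d)] at hw
      have h0 : coA w = 0 := by
        have := congrArg coB (hinj hw)
        rw [(sq_eq w).2, coB_one] at this
        exact eq_zero_of_pow_eq_zero this
      exact ⟨⟨coB w, fixed_coB h0⟩, Subtype.ext (congrArg (trC d) (uni_ext h0.symm rfl))⟩
  · rintro _ ⟨w, rfl⟩ hw
    rw [← map_mul, ← map_one (trC d)] at hw
    have h0 : coA w = 0 := by
      have := congrArg coB (hinj hw)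
      rw [(sq_eq w).2, coB_one] at this
      exact eq_zero_of_pow_eq_zero this
    rw [Subgroup.mem_center_iff]
    intro g
    obtain ⟨u, μ, hμ, hg⟩ := (hmemC g.1).1 g.2
    refine Subtype.ext (Subtype.ext ?_)
    have hfix : liftAut d μ 1 w = w :=
      uni_ext (by rw [coA_liftAut, h0, map_zero, mul_zero])
        (by rw [coB_liftAut, hμ, one_mul, RingAut.one_apply])
    have hcw : u * w = w * u := Subgroup.mem_center_iff.mp ((mem_center_iff w).2 h0) u
    simp only [Subgroup.coe_mul, hval, hg]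
    rw [mul_assoc, tor_trU, hfix, ← mul_assoc, ← map_mul, hcw, map_mul, mul_assoc]
  · intro g hg
    obtain ⟨u, μ, hμ, hg'⟩ := (hmemC g.1).1 g.2
    obtain ⟨a, ha⟩ := exists_coA d (1 : F)
    have h := hg ((trC d) a) ⟨a, rfl⟩
    have h' := congrArg (fun x : ↥C => (((x : ↥(pgu d)) : Equiv.Perm (Option (uni d))) (some 1))) h
    simp [hval, hg', tor_some, trU_some] at h'
    have h3 := congrArg coA h'
    simp [coA_mul, coA_liftAut, ha] at h3
    have h4 : (μ : F) = 1 := by linear_combination h3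
    refine ⟨u, Subtype.ext (Subtype.ext ?_)⟩
    rw [hval, hg']
    refine Equiv.ext fun p => ?_
    cases p with
    | none => simp [tor_none, trU_none]
    | some w =>
      simp only [Equiv.Perm.mul_apply, tor_some, trU_some]
      exact congrArg (fun v => some (u * v))
        (uni_ext (by simp [coA_liftAut, h4]) (by simp [coB_liftAut, h4]))

end CfsgLib.PGUThreeEven
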