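import Cfsg.Agent.PGUThreeEven.Centralizer

/-!
An automorphism of the unipotent group of odd order that fixes the centre and commutes with the
flip up to an automorphism is diagonal.
-/

set_option autoImplicit false
set_option linter.unusedSectionVars false

namespace CfsgLib.PGUThreeEven

open Cfsg CfsgLib.Unitary CfsgLib.UnitaryThree CfsgLib.RankOneClassify.Model

variable {F : Type*} [Field F] [Fintype F] {q : ℕ} {d : Data F q}

/-- An automorphism of odd order fixing the centre is diagonal up to a shear. -/
theorem exists_shear_liftAut {σ : MulAut (uni d)} (hfix : ∀ g, coA g = 0 → σ g = g) {m : ℕ}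
    (hm : Odd m) (hσ : σ ^ m = 1) :
    ∃ (μ : Fˣ) (h : F →+ fixedSub d),
      (μ : F) ^ (q + 1) = 1 ∧ σ = shear d h * liftAut d μ 1 := by
  have hψ : ∀ z : F, z ^ q = z → psi σ z = z := by
    intro z hz
    have h0 : coA (el d 0 z (cond_zero hz d)) = 0 := rfl
    have := psi_coB σ h0
    rw [hfix _ h0] at this
    exact this
  obtain ⟨θ, h0, hθ, hψθ⟩ := exists_semilinear σ
  have hN : phi σ 1 ^ (q + 1) = 1 := by
    have := hψθ 1 (one_pow q)
    rw [hψ 1 (one_pow q), map_one θ, mul_one] at this
    exact this.symm
  have hθfix : ∀ z : F, z ^ q = z → θ z = z := by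
    intro z hz
    have := hψθ z hz
    rw [hψ z hz, hN, one_mul] at this
    exact this.symm
  have hθθ : ∀ x, θ (θ x) = x := by
    intro x
    have hn : (x * x ^ q) ^ q = x * x ^ q := by rw [mul_pow, pow_q_q d.card, mul_comm]
    have ht : (x + x ^ q) ^ q = x + x ^ q := by rw [add_pow_q d.card, pow_q_q d.card, add_comm]
    have e1 := hθfix _ hn
    have e2 := hθfix _ ht
    rw [map_mul, map_pow] at e1
    rw [map_add, map_pow] at e2
    have : (θ x - x) * (θ x - x ^ q) = 0 := by
      linear_combination θ x * e2 - e1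
    rcases mul_eq_zero.mp this with h | h
    · rw [sub_eq_zero] at h; rw [h, h]
    · rw [sub_eq_zero] at h; rw [h, map_pow, h, pow_q_q d.card]
  rcases ringAut_sq_eq_one d.two d.card hθθ with hid | hfrob
  · have hm' : σ * (liftAut d (Units.mk0 _ h0) 1)⁻¹ ∈ shearGroup d := by
      rw [mem_shearGroup_iff]
      intro x
      obtain ⟨y, rfl⟩ : ∃ y, phi (liftAut d (Units.mk0 _ h0) 1) y = x :=
        ⟨phi (liftAut d (Units.mk0 _ h0) 1)⁻¹ x, by rw [← phi_mul, mul_inv_cancel, phi_one]⟩
      rw [← phi_mul, inv_mul_cancel_right, phi_liftAut, hθ, Units.val_mk0, RingAut.one_apply, hid]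
    obtain ⟨h, hh⟩ := exists_shear hm'
    exact ⟨Units.mk0 _ h0, h, by simpa using hN, by rw [hh, inv_mul_cancel_right]⟩
  · exfalso
    have hsq : σ ^ 2 ∈ shearGroup d := by
      rw [mem_shearGroup_iff]
      intro x
      rw [sq, phi_mul, hθ, hθ x, hfrob, hfrob, mul_pow, pow_q_q d.card, ← mul_assoc, ← pow_succ',
        hN, one_mul]
    have h4 : σ ^ 4 = 1 := by
      have := isElementaryAbelian_shearGroup.2 _ hsq
      rw [← pow_mul] at this
      exact this
    have h1 : σ = 1 := by
      rw [← orderOf_eq_one_iff]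
      refine Nat.eq_one_of_dvd_coprimes ?_ (orderOf_dvd_of_pow_eq_one h4) (orderOf_dvd_of_pow_eq_one hσ)
      have := Nat.Coprime.pow_left 2 (Nat.coprime_two_left.2 hm)
      exact this
    have hall : ∀ x : F, x ^ q = x := by
      intro x
      have := hθ x
      rw [h1, phi_one, phi_one, one_mul, hfrob] at this
      exact this.symm
    have h2 := card_fixed d.card
    rw [Nat.card_congr (Equiv.subtypeUnivEquiv hall), Nat.card_eq_fintype_card, d.card, sq] at h2
    have := two_le_q d.card
    nlinarith

/-- Commuting with the flip up to an automorphism kills the shear. -/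
theorem eq_liftAut {σ σ' : MulAut (uni d)} {μ : Fˣ} {h : F →+ fixedSub d}
    (hμ : (μ : F) ^ (q + 1) = 1) (hσ : σ = shear d h * liftAut d μ 1)
    (hflip : ∀ u : uni d, u ≠ 1 → σ' (flip u) = flip (σ u)) :
    σ = liftAut d μ 1 := by
  have hA : ∀ u, coA (σ u) = (μ : F) * coA u := fun u => by
    rw [hσ, MulAut.mul_apply, coA_shear, coA_liftAut, RingAut.one_apply]
  have hB : ∀ u, coB (σ u) = coB u + (h ((μ : F) * coA u) : F) := fun u => by
    rw [hσ, MulAut.mul_apply, coB_shear, coA_liftAut, coB_liftAut, hμ, one_mul,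
      RingAut.one_apply, RingAut.one_apply]
  have hflip_flip : ∀ v : uni d, v ≠ 1 → flip (flip v) = v := by
    intro v hv
    have hb := coB_ne_zero hv
    have hv' : flip v ≠ 1 := fun e => by
      have := coB_flip hv
      rw [e, coB_one, eq_comm, div_eq_zero_iff] at this
      exact one_ne_zero (this.resolve_right hb)
    refine uni_ext ?_ ?_
    · rw [coA_flip hv', coA_flip hv, coB_flip hv]; field_simp
    · rw [coB_flip hv', coB_flip hv]; field_simp
  have hg : ∀ v : uni d, v ≠ 1 → phi σ' (coA v) =
      ((μ : F) * (coA v / coB v)) / (1 / coB v + (h ((μ : F) * (coA v / coB v)) : F)) := by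
    intro v hv
    have hb := coB_ne_zero hv
    have hv' : flip v ≠ 1 := fun e => by
      have := coB_flip hv
      rw [e, coB_one, eq_comm, div_eq_zero_iff] at this
      exact one_ne_zero (this.resolve_right hb)
    have hs : σ (flip v) ≠ 1 := fun e => hv' (σ.injective (e.trans (map_one σ).symm))
    have := congrArg coA (hflip (flip v) hv')
    rw [hflip_flip v hv, ← phi_coA, coA_flip hs, hA, hB, coA_flip hv, coB_flip hv] at this
    exact this
  have hzero : ∀ v : uni d, coA v ≠ 0 → (h ((μ : F) * (coA v / coB v)) : F) = 0 := by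
    intro v hv
    by_contra hne
    set α := coA v with hα
    set b := coB v with hbdef
    have hv1 : v ≠ 1 := fun e => hv (by rw [hα, e, coA_one])
    have hb : b ≠ 0 := coB_ne_zero hv1
    have hc : Cond q α (b + 1) := by
      have := cond_coords v
      simp only [Cond, add_pow_q d.card, one_pow] at this ⊢
      linear_combination this + d.two
    set v' := el d α (b + 1) hc with hv'def
    have hv1' : v' ≠ 1 := fun e => hv (by
      have := congrArg coA e; rwa [hv'def, coA_el, coA_one] at this)
    have hb' : b + 1 ≠ 0 := by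
      have := coB_ne_zero hv1'; rwa [hv'def, coB_el] at this
    have e1 := hg v hv1
    have e2 := hg v' hv1'
    rw [← hα, ← hbdef] at e1
    rw [hv'def, coA_el, coB_el] at e2
    set l1 : F := (h ((μ : F) * (α / b)) : F) with hl1
    set l2 : F := (h ((μ : F) * (α / (b + 1))) : F) with hl2
    have hd1 : (1 / b + l1) ≠ 0 := by
      intro e0
      rw [e0, div_zero] at e1
      exact hv (phi_injective σ' (e1.trans (map_zero (phi σ')).symm))
    have hd2 : (1 / (b + 1) + l2) ≠ 0 := by
      intro e0
      rw [e0, div_zero] at e2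
      exact hv (phi_injective σ' (e2.trans (map_zero (phi σ')).symm))
    have e3 := e1.symm.trans e2
    rw [div_eq_div_iff hd1 hd2] at e3
    field_simp at e3
    have e4 : b * l1 = (b + 1) * l2 := by linear_combination -e3
    have r1 : l1 ^ q = l1 := (h _).2
    have r2 : l2 ^ q = l2 := (h _).2
    rcases eq_or_ne l1 l2 with e | e
    · rw [← e] at e4
      exact hne (by linear_combination -e4)
    · have hbr : b = l2 / (l1 - l2) := by
        rw [eq_div_iff (sub_ne_zero.2 e)]; linear_combination e4
      have hsub : (l1 - l2) ^ q = l1 - l2 := map_sub (conjHom d.card) l1 l2 |>.trans (by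
        simp [conjHom_apply, r1, r2])
      have hbq : b ^ q = b := by rw [hbr, div_pow, r2, hsub]
      have := cond_coords v
      rw [Cond, ← hbdef, ← hα, hbq, add_self_of_two d.two] at this
      exact hv (eq_zero_of_pow_eq_zero this.symm)
  refine MulEquiv.ext fun u => uni_ext (by rw [hA, coA_liftAut, RingAut.one_apply]) ?_
  rw [hB, coB_liftAut, hμ, one_mul, RingAut.one_apply, add_eq_left]
  rcases eq_or_ne (coA u) 0 with h0 | h0
  · rw [h0, mul_zero, map_zero]; rfl
  have hu : u ≠ 1 := fun e => h0 (by rw [e, coA_one])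
  have hb := coB_ne_zero hu
  have := hzero (flip u) (by rw [coA_flip hu]; exact div_ne_zero h0 hb)
  rwa [coA_flip hu, coB_flip hu, show coA u / coB u / (1 / coB u) = coA u by field_simp] at this

end CfsgLib.PGUThreeEven
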