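import Cfsg.Agent.RankOne.Classify.ModelPSU
import Cfsg.Agent.UnitaryThree.Aut

/-!
`PGU₃(q)`, `q` even, as a permutation group of the `q³ + 1` isotropic points: the representation
`repG` of `GU₃(q)` extending `RankOneClassify.Model.rep`, its kernel and the stabiliser of two points.
-/

set_option autoImplicit false
set_option linter.unusedSectionVars false

namespace CfsgLib.PGUThreeEven

open Cfsg CfsgLib.Unitary CfsgLib.UnitaryThree CfsgLib.RankOneClassify.Model Matrix

variable {F : Type*} [Field F] [Fintype F] {q : ℕ} {d : Data F q}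

/-- The matrix of an element of `GU₃` acting on a vector. -/
def gv (g : ↥(GU 3 F q)) (x : Fin 3 → F) : Fin 3 → F :=
  ((g : GL (Fin 3) F) : Matrix (Fin 3) (Fin 3) F).mulVec x

theorem gv_mul (g h : ↥(GU 3 F q)) (x : Fin 3 → F) : gv (g * h) x = gv g (gv h x) := by
  simp [gv, Matrix.mulVec_mulVec]

theorem gv_one (x : Fin 3 → F) : gv (1 : ↥(GU 3 F q)) x = x := Matrix.one_mulVec x

theorem gv_smul (g : ↥(GU 3 F q)) (c : F) (x : Fin 3 → F) : gv g (c • x) = c • gv g x :=
  Matrix.mulVec_smul _ _ _

theorem gv_add (g : ↥(GU 3 F q)) (x y : Fin 3 → F) : gv g (x + y) = gv g x + gv g y :=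
  Matrix.mulVec_add _ _ _

theorem gv_herm (g : ↥(GU 3 F q)) (x y : Fin 3 → F) :
    hermForm 3 F q (gv g x) (gv g y) = hermForm 3 F q x y := mem_GU.1 g.2 x y

theorem gv_suToGU (A : ↥(SU 3 F q)) (x : Fin 3 → F) : gv (suToGU A) x = sv A x := rfl

theorem gv_ne_zero (g : ↥(GU 3 F q)) {x : Fin 3 → F} (hx : x ≠ 0) : gv g x ≠ 0 := by
  intro h
  apply hx
  have := congrArg (gv g⁻¹) h
  rw [← gv_mul, inv_mul_cancel, gv_one] at this
  rw [this]
  exact Matrix.mulVec_zero _

theorem exists_image (g : ↥(GU 3 F q)) (p : Option (uni d)) :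
    ∃ (p' : Option (uni d)) (l : F), l ≠ 0 ∧ gv g (pvec p) = l • pvec p' :=
  exists_pvec (by rw [gv_herm, herm_pvec p]) (gv_ne_zero g (pvec_ne_zero p))

/-- The action on points. -/
noncomputable def actG (g : ↥(GU 3 F q)) (p : Option (uni d)) : Option (uni d) :=
  (exists_image g p).choose

theorem actG_eq {g : ↥(GU 3 F q)} {p p' : Option (uni d)} {l : F}
    (h : gv g (pvec p) = l • pvec p') : actG g p = p' := by
  obtain ⟨m, hm, hm'⟩ : ∃ m : F, m ≠ 0 ∧ gv g (pvec p) = m • pvec (actG g p) :=
    (exists_image g p).choose_spec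
  refine pvec_inj (l := m⁻¹ * l) ?_
  rw [← smul_smul, ← h, hm', smul_smul, inv_mul_cancel₀ hm, one_smul]

theorem gv_pvec (g : ↥(GU 3 F q)) (p : Option (uni d)) :
    ∃ l : F, l ≠ 0 ∧ gv g (pvec p) = l • pvec (actG g p) :=
  (exists_image g p).choose_spec

theorem actG_one (p : Option (uni d)) : actG (1 : ↥(GU 3 F q)) p = p :=
  actG_eq (l := 1) (by rw [gv_one, one_smul])

theorem actG_mul (g h : ↥(GU 3 F q)) (p : Option (uni d)) :
    actG (g * h) p = actG g (actG h p) := by
  obtain ⟨l, -, hl⟩ := gv_pvec h p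
  obtain ⟨m, -, hm⟩ := gv_pvec g (actG h p)
  exact actG_eq (l := l * m) (by rw [gv_mul, hl, gv_smul, hm, smul_smul])

/-- The representation of `GU₃(q)` on the points. -/
noncomputable def repG (d : Data F q) : ↥(GU 3 F q) →* Equiv.Perm (Option (uni d)) where
  toFun g :=
    { toFun := actG g
      invFun := actG g⁻¹
      left_inv := fun p => by rw [← actG_mul, inv_mul_cancel, actG_one]
      right_inv := fun p => by rw [← actG_mul, mul_inv_cancel, actG_one] }
  map_one' := Equiv.ext actG_one
  map_mul' g h := Equiv.ext (actG_mul g h)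

theorem repG_apply (g : ↥(GU 3 F q)) (p : Option (uni d)) : repG d g p = actG g p := rfl

theorem repG_suToGU (A : ↥(SU 3 F q)) : repG d (suToGU A) = rep d A := by
  refine Equiv.ext fun p => ?_
  obtain ⟨l, -, hl⟩ := sv_pvec A p
  exact actG_eq (g := suToGU A) (l := l) (by rw [gv_suToGU, hl, rep_apply])

/-- `PGU₃(q)` as a permutation group. -/
noncomputable def pgu (d : Data F q) : Subgroup (Equiv.Perm (Option (uni d))) := (repG d).range

theorem rep_mem_pgu (A : ↥(SU 3 F q)) : rep d A ∈ pgu d := ⟨suToGU A, repG_suToGU A⟩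

/-- The translation by an element of the unipotent group. -/
noncomputable def trU (d : Data F q) : uni d →* Equiv.Perm (Option (uni d)) :=
  (rep d).comp (uni d).subtype

theorem trU_mem (u : uni d) : trU d u ∈ pgu d := rep_mem_pgu _

theorem trU_none (u : uni d) : trU d u none = none := rep_uni_none u

theorem trU_some (u w : uni d) : trU d u (some w) = some (u * w) := rep_uni_some u w

theorem trU_injective : Function.Injective (trU d) := fun u v h => by
  have := congrArg (fun π : Equiv.Perm (Option (uni d)) => π (some 1)) h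
  simpa [trU_some] using this

theorem repG_flip_mem : rep d (flipSU d) ∈ pgu d := rep_mem_pgu _

/-- An element fixing all points is a scalar of norm one. -/
theorem exists_scalar_of_repG_eq_one {g : ↥(GU 3 F q)} (hg : repG d g = 1) :
    ∃ c : F, c ^ (q + 1) = 1 ∧ ∀ x, gv g x = c • x := by
  obtain ⟨a, ha⟩ := exists_coA d (1 : F)
  obtain ⟨l₀, hne0, h0⟩ := gv_pvec g (none : Option (uni d))
  obtain ⟨l₁, hne1, h1⟩ := gv_pvec g (some (1 : uni d))
  obtain ⟨l, -, hl⟩ := gv_pvec g (some a)
  rw [← repG_apply, hg, Equiv.Perm.one_apply] at h0 h1 hl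
  simp only [pvec, Option.elim] at h0
  have h1' : gv g (vF d) = l₁ • vF d := by simpa [pvec, vP] using h1
  simp only [pvec, Option.elim, vP, gv_add, gv_smul, h0, h1', ha, one_smul] at hl
  obtain ⟨z, hz⟩ : ∃ z : Fin 3 → F, gv g vG = z := ⟨_, rfl⟩
  have hzz : hermForm 3 F q (gv g vG) (gv g vG) = 1 := by
    rw [gv_herm]; simp [hermForm, vG, Fin.sum_univ_three, d.q_pos.ne']
  have hzE : hermForm 3 F q (gv g vG) (gv g vE) = 0 := by
    rw [gv_herm]; simp [hermForm, vG, vE, Fin.sum_univ_three, d.q_pos.ne']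
  have hzF : hermForm 3 F q (gv g vG) (gv g (vF d)) = 0 := by
    rw [gv_herm]; simp [hermForm, vG, vF, Fin.sum_univ_three, d.q_pos.ne']
  rw [h0, herm_smul_right, mul_eq_zero] at hzE
  rw [h1', herm_smul_right, mul_eq_zero] at hzF
  have e0 := hzE.resolve_left (pow_ne_zero _ hne0)
  have e1 := hzF.resolve_left (pow_ne_zero _ hne1)
  rw [hz] at hl e0 e1 hzz
  have hc := cPar_pow d
  simp [hermForm, vE, vF, Fin.sum_univ_three, add_pow_q d.card, hc, d.q_pos.ne'] at e0 e1 hzz
  have z1 : z 1 = z 0 := by linear_combination e0 - z 0 * d.two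
  have z0 : z 0 = 0 := by
    rw [z1] at e1
    linear_combination e1 - (z 0 * cPar d + z 0) * d.two
  rw [z0] at z1
  rw [z0, z1] at hzz
  simp [d.q_pos.ne'] at hzz
  have q0 := congrFun hl 0
  have q1 := congrFun hl 1
  have q2 := congrFun hl 2
  simp [vE, vF, vG, z0, z1] at q0 q1 q2
  have hl1 : l₁ = l := by linear_combination q1 - q0
  have hb : coB a ≠ 0 := coB_ne_zero fun h => by rw [h, coA_one] at ha; exact zero_ne_one ha
  have hl0 : l₀ = l := mul_left_cancel₀ hb (by linear_combination q0 - cPar d * hl1)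
  have e2 : gv g vG = l • vG := by
    rw [hz]; funext i; fin_cases i <;> simp [vG, z0, z1, q2]
  refine ⟨l, by rw [pow_succ, mul_comm, ← q2]; exact hzz, fun x => ?_⟩
  have hx : x = (x 0 + cPar d * (x 0 + x 1)) • vE + (x 0 + x 1) • vF d + x 2 • vG := by
    funext i
    fin_cases i <;> simp [vE, vF, vG] <;> first
      | linear_combination -(cPar d * (x 0 + x 1)) * d.two
      | linear_combination -(cPar d * (x 0 + x 1) + x 0) * d.two
  rw [hx, gv_add, gv_add, gv_smul, gv_smul, gv_smul, h0, hl0, h1', hl1, e2, smul_add, smul_add,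
    smul_comm l, smul_comm l, smul_comm l]

theorem eq_of_gv_eq {g h : ↥(GU 3 F q)} (e : ∀ x, gv g x = gv h x) : g = h :=
  Subtype.ext (Units.ext (Matrix.toLin'.injective (LinearMap.ext fun x => by
    simpa [Matrix.toLin'_apply, gv] using e x)))

/-- The kernel is the centre. -/
theorem ker_repG (d : Data F q) : (repG d).ker = Subgroup.center ↥(GU 3 F q) := by
  ext g
  rw [MonoidHom.mem_ker]
  constructor
  · intro hg
    obtain ⟨c, -, hc⟩ := exists_scalar_of_repG_eq_one hg
    rw [Subgroup.mem_center_iff]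
    intro h
    refine eq_of_gv_eq fun x => ?_
    rw [gv_mul, gv_mul, hc, hc, gv_smul]
  · intro hg
    have hcomm : ∀ h : ↥(GU 3 F q), ∀ p, repG d g (repG d h p) = repG d h (repG d g p) := by
      intro h p
      rw [← Equiv.Perm.mul_apply, ← Equiv.Perm.mul_apply, ← map_mul, ← map_mul,
        Subgroup.mem_center_iff.1 hg h]
    have hU : ∀ u : uni d, ∀ p, repG d g (trU d u p) = trU d u (repG d g p) := fun u p => by
      simpa [trU, repG_suToGU] using hcomm (suToGU (u : ↥(SU 3 F q))) p
    have h0 : repG d g none = none := by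
      rcases e : repG d g (none : Option (uni d)) with _ | w
      · rfl
      · exfalso
        obtain ⟨a, ha⟩ := exists_coA d (1 : F)
        have := hU a none
        rw [trU_none, e, trU_some, Option.some_inj] at this
        rw [eq_comm, mul_eq_right] at this
        rw [this, coA_one] at ha
        exact zero_ne_one ha
    have h1 : repG d g (some 1) = some 1 := by
      have := hcomm (suToGU (flipSU d)) none
      rwa [repG_suToGU, rep_flip_none, h0, rep_flip_none] at this
    refine Equiv.ext fun p => ?_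
    cases p with
    | none => exact h0
    | some u =>
      have := hU u (some 1)
      rwa [trU_some, mul_one, h1, trU_some, mul_one] at this

/-- `GU₃(q)` modulo its centre is the permutation group. -/
noncomputable def pguEquiv (d : Data F q) :
    (↥(GU 3 F q) ⧸ Subgroup.center ↥(GU 3 F q)) ≃* ↥(pgu d) :=
  (QuotientGroup.quotientMulEquivOfEq (ker_repG d).symm).trans
    (QuotientGroup.quotientKerEquivRange (repG d))

theorem card_center_le (d : Data F q) : Nat.card (Subgroup.center ↥(GU 3 F q)) ≤ q + 1 := by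
  rw [← card_norm_one d.card]
  have hsc : ∀ g : Subgroup.center ↥(GU 3 F q), ∃ c : F, c ^ (q + 1) = 1 ∧ ∀ x, gv g.1 x = c • x :=
    fun g => exists_scalar_of_repG_eq_one (d := d) (MonoidHom.mem_ker.mp (by rw [ker_repG d]; exact g.2))
  choose c hc1 hc2 using hsc
  refine Nat.card_le_card_of_injective (fun g => (⟨c g, hc1 g⟩ : {x : F // x ^ (q + 1) = 1}))
    fun g h e => ?_
  have e' : c g = c h := congrArg Subtype.val e
  exact Subtype.ext (eq_of_gv_eq fun x => by rw [hc2, hc2, e'])

/-- The order of `PGU₃(q)` is at least that of `SU₃(q)`. -/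
theorem card_pgu_ge (d : Data F q) : (q ^ 3 + 1) * (q ^ 3 * (q ^ 2 - 1)) ≤ Nat.card (pgu d) := by
  have h1 := Subgroup.card_eq_card_quotient_mul_card_subgroup (Subgroup.center ↥(GU 3 F q))
  rw [Nat.card_congr (pguEquiv d).toEquiv, card_GU d.card] at h1
  simp [Finset.prod_range_succ, Nat.even_add_one] at h1
  have h3 := Nat.mul_le_mul_left (Nat.card (pgu d)) (card_center_le d)
  rw [← h1] at h3
  have h4 : (q ^ 3 + 1) * (q ^ 3 * (q ^ 2 - 1)) * (q + 1) ≤ Nat.card (pgu d) * (q + 1) :=
    le_trans (le_of_eq (by ring)) h3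
  exact Nat.le_of_mul_le_mul_right h4 (Nat.succ_pos q)

end CfsgLib.PGUThreeEven
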